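import Cfsg.Agent.LThreeMB.Quo

/-!
# The quotient `C(v) / ⟨v⟩`: lifting elements of order prime to the order of `v` (helper328)

* `exists_lift` : elements of prime order of `XX v` lift to elements of the same order of `C(v)`;
* `comm_of_mk` : commuting images imply commuting elements (one of them of order prime to `|v|`);
* `orderOf_mk`, `card_cent`.
-/

set_option autoImplicit false

namespace Cfsg.Agent.H328.Mon

open Cfsg.Agent.LThreeMB
open Subgroup (centralizer zpowers mem_centralizer_singleton_iff)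

variable {G : Type*} [Group G] {v : G}

theorem pow_comm' {a : G} (ha : a * v = v * a) (k : ℕ) : a ^ k * v = v * a ^ k :=
  ((show Commute a v from ha).pow_left k)

theorem mk_pow {a : G} (ha : a * v = v * a) (k : ℕ) : (mk v ha) ^ k = mk v (pow_comm' ha k) := rfl

theorem orderOf_zpow_dvd' (x : G) (i : ℤ) : orderOf (x ^ i) ∣ orderOf x := by
  apply orderOf_dvd_of_pow_eq_one
  rw [← zpow_natCast, ← zpow_mul, mul_comm, zpow_mul, zpow_natCast, pow_orderOf_eq_one, one_zpow]

theorem exists_lift {p : ℕ} (hp : p.Prime) (hc : p.Coprime (orderOf v)) {u : XX v} (hu : orderOf u = p) :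
    ∃ (a : G) (ha : a * v = v * a), orderOf a = p ∧ mk v ha = u := by
  have hpf : Fact p.Prime := ⟨hp⟩
  obtain ⟨a, ha, rfl⟩ := exists_mk u
  obtain ⟨k, hk1, hk2⟩ := Nat.chineseRemainder hc 1 0
  have h1 : mk v (pow_comm' ha p) = 1 := by
    have h0 := pow_orderOf_eq_one (mk v ha)
    rwa [hu, mk_pow] at h0
  obtain ⟨i, hi⟩ := (mk_eq_one _).1 h1
  have h2 : mk v (pow_comm' ha k) = mk v ha := by
    have h0 : (mk v ha) ^ k = (mk v ha) ^ 1 := by
      rw [pow_eq_pow_iff_modEq, hu]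
      exact hk1
    rwa [mk_pow, pow_one] at h0
  refine ⟨a ^ k, pow_comm' ha k, orderOf_eq_prime ?_ ?_, h2⟩
  · rw [← pow_mul, mul_comm, pow_mul, ← hi]
    obtain ⟨j, rfl⟩ := Nat.modEq_zero_iff_dvd.1 hk2
    rw [← zpow_natCast, ← zpow_mul, mul_comm, Nat.cast_mul, mul_assoc, zpow_mul, zpow_natCast,
      pow_orderOf_eq_one, one_zpow]
  · intro h
    rw [← h2] at hu
    have h3 : mk v (pow_comm' ha k) = 1 := by
      rw [mk_congr (pow_comm' ha k) (by rw [one_mul, mul_one]) h]; rfl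
    rw [h3, orderOf_one] at hu
    exact hp.one_lt.ne hu

theorem mk_comm {a b : G} (ha : a * v = v * a) (hb : b * v = v * b) (h : a * b = b * a) :
    mk v ha * mk v hb = mk v hb * mk v ha := by
  have hab : (a * b) * v = v * (a * b) := by rw [mul_assoc, hb, ← mul_assoc, ha, mul_assoc]
  have hba : (b * a) * v = v * (b * a) := by rw [mul_assoc, ha, ← mul_assoc, hb, mul_assoc]
  have h1 : mk v hab = mk v hba := mk_congr hab hba h
  exact h1

theorem comm_of_mk {a b : G} (ha : a * v = v * a) (hb : b * v = v * b) (hc : (orderOf b).Coprime (orderOf v))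
    (h : mk v ha * mk v hb = mk v hb * mk v ha) : a * b = b * a := by
  have hab : (a * b) * v = v * (a * b) := by rw [mul_assoc, hb, ← mul_assoc, ha, mul_assoc]
  have hba : (b * a) * v = v * (b * a) := by rw [mul_assoc, ha, ← mul_assoc, hb, mul_assoc]
  have h1 : mk v hab = mk v hba := h
  obtain ⟨i, hi⟩ := (mk_eq_mk hab hba).1 h1
  have hcb : Commute b (v ^ i) := (show Commute b v from hb).zpow_right i
  have h2 : a * (b * v ^ i) * a⁻¹ = b := by rw [← mul_assoc a b, hi]; group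
  have h3 : (b * v ^ i) ^ orderOf b = 1 := by
    have h4 : (a * (b * v ^ i) * a⁻¹) ^ orderOf b = 1 := by rw [h2, pow_orderOf_eq_one]
    rw [conj_pow] at h4
    have h5 := congrArg (fun t => a⁻¹ * t * a) h4
    simpa [mul_assoc] using h5
  rw [hcb.mul_pow, pow_orderOf_eq_one, one_mul] at h3
  have h6 : orderOf (v ^ i) ∣ orderOf v := orderOf_zpow_dvd' v i
  have h7 : orderOf (v ^ i) ∣ Nat.gcd (orderOf b) (orderOf v) := Nat.dvd_gcd (orderOf_dvd_of_pow_eq_one h3) h6
  rw [hc, Nat.dvd_one, orderOf_eq_one_iff] at h7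
  rw [← hi, h7, mul_one]

theorem orderOf_mk' {p : ℕ} (hp : p.Prime) {a : G} (ha : a * v = v * a) (hap : orderOf a = p)
    (hc : p.Coprime (orderOf v)) : orderOf (mk v ha) = p := by
  have hpf : Fact p.Prime := ⟨hp⟩
  refine orderOf_eq_prime ?_ ?_
  · rw [mk_pow, mk_congr (pow_comm' ha p) (by rw [one_mul, mul_one]) (by rw [← hap, pow_orderOf_eq_one])]
    rfl
  · intro h
    obtain ⟨i, hi⟩ := (mk_eq_one ha).1 h
    have h1 : orderOf a ∣ orderOf v := by rw [← hi]; exact orderOf_zpow_dvd' v i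
    rw [hap] at h1
    have h2 := Nat.dvd_gcd (dvd_refl p) h1
    rw [hc, Nat.dvd_one] at h2
    exact hp.one_lt.ne' h2

theorem card_cent (v : G) : Nat.card ↥(centralizer ({v} : Set G)) = orderOf v * Nat.card (XX v) := by
  rw [Subgroup.card_eq_card_quotient_mul_card_subgroup (Zx v), mul_comm]
  congr 1
  rw [Zx, Nat.card_zpowers, self, Subgroup.orderOf_mk]

/-- conjugate subgroups of prime order, the prime exactly dividing the order of the group -/
theorem exists_conj [Finite G] {r : ℕ} (hr : r.Prime) (hr2 : ¬ r ^ 2 ∣ Nat.card G) {w : G} (hv : orderOf v = r)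
    (hw : orderOf w = r) : ∃ g : G, ∀ c : G, c * w = w * c ↔ (g * c * g⁻¹) * v = v * (g * c * g⁻¹) := by
  have : Fact r.Prime := ⟨hr⟩
  have key : ∀ w : G, orderOf w = r → ¬ r ∣ (zpowers w).index := by
    intro w hw h1
    apply hr2
    rw [← (zpowers w).card_mul_index, Nat.card_zpowers, hw, pow_two]
    exact Nat.mul_dvd_mul_left r h1
  have hpg : ∀ w : G, orderOf w = r → IsPGroup r ↥(zpowers w) := fun w hw =>
    IsPGroup.of_card (n := 1) (by rw [Nat.card_zpowers, hw, pow_one])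
  obtain ⟨g, hg⟩ := MulAction.exists_smul_eq G ((hpg w hw).toSylow (key w hw)) ((hpg v hv).toSylow (key v hv))
  have hg' : (zpowers w).map (MulAut.conj g).toMonoidHom = zpowers v := congrArg Sylow.toSubgroup hg
  obtain ⟨i, hi⟩ : ∃ i : ℤ, g * w ^ i * g⁻¹ = v := by
    have h2 : v ∈ (zpowers w).map (MulAut.conj g).toMonoidHom := by rw [hg']; exact Subgroup.mem_zpowers v
    obtain ⟨_, ⟨i, rfl⟩, h3⟩ := h2
    exact ⟨i, h3⟩
  obtain ⟨j, hj⟩ : ∃ j : ℤ, v ^ j = g * w * g⁻¹ := by
    have h2 : g * w * g⁻¹ ∈ zpowers v := by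
      rw [← hg']
      exact ⟨w, Subgroup.mem_zpowers w, rfl⟩
    exact Subgroup.mem_zpowers_iff.1 h2
  refine ⟨g, fun c => ⟨fun hc => ?_, fun hc => ?_⟩⟩
  · have h3 : Commute c (w ^ i) := (show Commute c w from hc).zpow_right i
    rw [← hi]
    calc g * c * g⁻¹ * (g * w ^ i * g⁻¹) = g * (c * w ^ i) * g⁻¹ := by group
      _ = g * (w ^ i * c) * g⁻¹ := by rw [h3.eq]
      _ = _ := by group
  · have h3 : Commute (g * c * g⁻¹) (v ^ j) := (show Commute (g * c * g⁻¹) v from hc).zpow_right j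
    rw [hj] at h3
    have h4 := h3.eq
    calc c * w = g⁻¹ * ((g * c * g⁻¹) * (g * w * g⁻¹)) * g := by group
      _ = g⁻¹ * ((g * w * g⁻¹) * (g * c * g⁻¹)) * g := by rw [h4]
      _ = _ := by group

end Cfsg.Agent.H328.Mon
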