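import Cfsg.Agent.H328.Mon.Lift
import Cfsg.Agent.H341.SelfThree
import Cfsg.Agent.H413.JOneLocal
import Cfsg.Agent.H199.NSmAbs
import Cfsg.Agent.H217.Odm.Eng
import Cfsg.Agent.OddOrderLocal.FittingHall
import Cfsg.Agent.ClassicalGeometry.PSL2Basic

/-!
# The elements of order 19 of the Monster: the order of the centralizer, abstractly (helper328)

`Dat G` : the facts on `G`; `card_cent_nineteen` : `|C(v)| = 19 · 60` for the elements `v` of order 19.
-/

set_option autoImplicit false

namespace Cfsg.Agent.H328.Mon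

open Cfsg Cfsg.Agent.LThreeMB Subgroup
open Cfsg.Agent.OrdDiv

universe u

/-- in `J₁` an involution centralizes an element of order 3 -/
theorem jone (S : Type*) [Group S] (hS : Spor.IsoJ1 S) :
    ∃ g k : S, orderOf g = 3 ∧ g * k = k * g ∧ k ^ 3 ≠ 1 := by
  obtain ⟨e⟩ := hS
  refine ⟨e.symm H413.JOneLocal.b, e.symm H413.JOneLocal.u, ?_, ?_, ?_⟩
  · rw [MulEquiv.orderOf_eq]
    have : Fact (Nat.Prime 3) := ⟨Nat.prime_three⟩
    exact orderOf_eq_prime H413.JOneLocal.b_cu H413.JOneLocal.b_ne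
  · rw [← map_mul, ← map_mul, H413.JOneLocal.bu]
  · rw [← map_pow, ne_eq, EmbeddingLike.map_eq_one_iff, pow_succ, H413.JOneLocal.u_sq, one_mul]
    exact H413.JOneLocal.u_ne

/-- the facts -/
structure Dat (G : Type u) [Group G] : Prop where
  card : Nat.card G = 808017424794512875886459904961710757005754368000000000
  three : ∃ y v g : G, orderOf y = 3 ∧ orderOf v = 19 ∧ y * v = v * y ∧
    (∀ z, z * y = y * z → z * v = v * z → ∃ i j : ℤ, z = v ^ i * y ^ j) ∧ g * v * g⁻¹ = v ^ 2
  five : ∃ f v : G, orderOf f = 5 ∧ orderOf v = 19 ∧ f * v = v * f ∧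
    ∀ s, orderOf s = 2 → s * f = f * s → s * v ≠ v * s
  four : ∃ v : G, orderOf v = 19 ∧ 4 ∣ Nat.card (centralizer ({v} : Set G))
  rank : PRankLE 2 15 G

variable {G : Type u} [Group G] [Finite G]

/-- the automizer of `⟨v⟩`, `v` of order 19, is everything if `v` is conjugate to `v ^ 2` -/
theorem card_norm {v g : G} (hv : orderOf v = 19) (hg : g * v * g⁻¹ = v ^ 2) :
    Nat.card (normalizer ((zpowers v : Subgroup G) : Set G)) = 18 * Nat.card (centralizer ({v} : Set G)) := by
  set P : Subgroup G := zpowers v with hP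
  have hr : Nat.Prime 19 := by norm_num
  have hPc : Nat.card P = 19 := by rw [hP, Nat.card_zpowers, hv]
  have hCP : centralizer ({v} : Set G) = centralizer (P : Set G) := by
    rw [hP, zpowers_eq_closure, centralizer_closure]
  let φ : normalizer (P : Set G) →* MulAut P := P.normalizerMonoidHom
  have hker : Nat.card φ.ker = Nat.card (centralizer ({v} : Set G)) := by
    rw [show φ.ker = _ from P.normalizerMonoidHom_ker, hCP]
    exact Nat.card_congr (Subgroup.subgroupOfEquivOfLe (centralizer_le_normalizer _)).toEquiv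
  have hcard : Nat.card (normalizer (P : Set G)) = Nat.card φ.range * Nat.card (centralizer ({v} : Set G)) := by
    rw [← hker, ← Subgroup.card_mul_index φ.ker, Subgroup.index_ker, mul_comm]
  have hpf : Fact (Nat.Prime 19) := ⟨hr⟩
  have hcyc : IsCyclic P := isCyclic_of_prime_card hPc
  have haut : Nat.card (MulAut P) = 18 := by
    rw [IsCyclic.card_mulAut, hPc, Nat.totient_prime hr]
  have hd : Nat.card φ.range ∣ 18 := by rw [← haut]; exact Subgroup.card_subgroup_dvd_card _
  -- the element `g`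
  have hgi : g⁻¹ * v * g ∈ P := by
    have h1 : (g⁻¹ * v * g) ^ 2 = v := by
      have h2 : (g⁻¹ * v * g) ^ 2 = g⁻¹ * v ^ 2 * g := by rw [pow_two, pow_two]; group
      rw [h2, ← hg]; group
    have h3 : (g⁻¹ * v * g) ^ 19 = 1 := by
      have h4 : (g⁻¹ * v * g) ^ 19 = g⁻¹ * v ^ 19 * g := by
        have := conj_pow (i := 19) (a := g⁻¹) (b := v)
        rwa [inv_inv] at this
      rw [h4, ← hv, pow_orderOf_eq_one]; group
    have h5 : g⁻¹ * v * g = v ^ 10 := by
      calc g⁻¹ * v * g = (g⁻¹ * v * g) ^ 19 * (g⁻¹ * v * g) := by rw [h3, one_mul]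
        _ = ((g⁻¹ * v * g) ^ 2) ^ 10 := by rw [← pow_succ, ← pow_mul]
        _ = v ^ 10 := by rw [h1]
    rw [h5]
    exact npow_mem_zpowers v 10
  have hgN : g ∈ normalizer (P : Set G) := by
    rw [mem_normalizer_iff]
    intro h
    constructor
    · intro hh
      obtain ⟨k, rfl⟩ := mem_zpowers_iff.1 hh
      have h1 : g * v ^ k * g⁻¹ = (v ^ 2) ^ k := by rw [← conj_zpow, hg]
      rw [h1]
      exact zpow_mem (npow_mem_zpowers v 2) k
    · intro hh
      obtain ⟨k, hk⟩ := mem_zpowers_iff.1 hh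
      have h1 : h = (g⁻¹ * v * g) ^ k := by
        have h2 : (g⁻¹ * v * g) ^ k = g⁻¹ * v ^ k * g := by
          have := conj_zpow (i := k) (a := g⁻¹) (b := v)
          rwa [inv_inv] at this
        rw [h2, hk]; group
      rw [h1]
      exact zpow_mem hgi k
  have hpw : ∀ k : ℕ, g ^ k * v * (g ^ k)⁻¹ = v ^ (2 ^ k) := by
    intro k
    induction k with
    | zero => simp
    | succ k ih =>
      calc g ^ (k + 1) * v * (g ^ (k + 1))⁻¹ = g * (g ^ k * v * (g ^ k)⁻¹) * g⁻¹ := by rw [pow_succ' g]; group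
        _ = (g * v * g⁻¹) ^ (2 ^ k) := by rw [ih, conj_pow]
        _ = _ := by rw [hg, ← pow_mul, pow_succ']
  have hne : ∀ k : ℕ, ¬ 19 ∣ 2 ^ k - 1 → (φ ⟨g, hgN⟩) ^ k ≠ 1 := by
    intro k hk h1
    apply hk
    have h2 : ((φ ⟨g, hgN⟩) ^ k) ⟨v, mem_zpowers v⟩ = ⟨v, mem_zpowers v⟩ := by rw [h1]; rfl
    rw [← map_pow] at h2
    have h3 : g ^ k * v * (g ^ k)⁻¹ = v := congrArg Subtype.val h2
    rw [hpw] at h3
    rw [← hv]
    apply orderOf_dvd_of_pow_eq_one
    have h4 : v ^ (2 ^ k - 1) * v = 1 * v := by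
      rw [← pow_succ, Nat.sub_add_cancel Nat.one_le_two_pow, h3, one_mul]
    exact mul_right_cancel h4
  have ho : orderOf (φ ⟨g, hgN⟩) ∣ Nat.card φ.range := by
    have h1 := orderOf_dvd_natCard (⟨φ ⟨g, hgN⟩, ⟨_, rfl⟩⟩ : φ.range)
    rwa [← Subgroup.orderOf_coe] at h1
  have h18 : orderOf (φ ⟨g, hgN⟩) = 18 := by
    have h1 := ho.trans hd
    have h2 : orderOf (φ ⟨g, hgN⟩) ∈ Nat.divisors 18 := Nat.mem_divisors.2 ⟨h1, by norm_num⟩
    rw [show Nat.divisors 18 = {1, 2, 3, 6, 9, 18} by decide] at h2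
    have h6 : ¬ orderOf (φ ⟨g, hgN⟩) ∣ 6 := fun h => hne 6 (by norm_num) (orderOf_dvd_iff_pow_eq_one.1 h)
    have h9 : ¬ orderOf (φ ⟨g, hgN⟩) ∣ 9 := fun h => hne 9 (by norm_num) (orderOf_dvd_iff_pow_eq_one.1 h)
    simp only [Finset.mem_insert, Finset.mem_singleton] at h2
    rcases h2 with h | h | h | h | h | h
    · exact absurd (by rw [h]; norm_num) h6
    · exact absurd (by rw [h]; norm_num) h6
    · exact absurd (by rw [h]; norm_num) h6
    · exact absurd (by rw [h]) h6
    · exact absurd (by rw [h]) h9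
    · exact h
  rw [hcard, Nat.dvd_antisymm hd (by rw [← h18]; exact ho)]

/-- **the order of the centralizer of an element of order 19** -/
theorem card_cent_nineteen (tab : OrderTable.{u}) (known : H257.El.Known.{u}) (D : Dat G) {w : G} (hw : orderOf w = 19) :
    Nat.card (centralizer ({w} : Set G)) = 19 * 60 := by
  classical
  have h19 : Nat.Prime 19 := by norm_num
  have hsq : ¬ 19 ^ 2 ∣ Nat.card G := by rw [D.card]; norm_num
  obtain ⟨y, v, g, hy, hv, hyv, hyz, hg⟩ := D.three
  have hwv : Nat.card (centralizer ({w} : Set G)) = Nat.card (centralizer ({v} : Set G)) :=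
    Nat.dvd_antisymm (H199.NSmAbs.card_cent_dvd h19 hsq hv hw) (H199.NSmAbs.card_cent_dvd h19 hsq hw hv)
  rw [hwv]
  -- the quotient
  set c := Nat.card (XX v) with hc
  have hcc : Nat.card (centralizer ({v} : Set G)) = 19 * c := by rw [card_cent, hv]
  have hcop : ∀ p : ℕ, p.Prime → p ≠ 19 → p.Coprime (orderOf v) := fun p hp h => by
    rw [hv]; exact (Nat.coprime_primes hp h19).2 h
  -- the congruence
  have hmod : (18 * c) % 19 = 16 := by
    obtain ⟨m, -, hm2, hm3⟩ := H217.Odm.frattini_card h19 hsq ⊤ (zpowers v)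
      (by rw [Nat.card_zpowers, hv]) le_top
    rw [Subgroup.card_top] at hm2 hm3
    have hm4 : Nat.card (normalizer ((zpowers v : Subgroup G) : Set G)) = 19 * m :=
      (Nat.eq_of_mul_eq_mul_left Nat.card_pos hm3).symm
    rw [card_norm hv hg, hcc] at hm4
    have hm5 : m = 18 * c := by omega
    rw [← hm5, ← hm2, D.card]
  -- the element of order 5
  obtain ⟨f', v', hf', hv', hfv', hfs'⟩ := D.five
  obtain ⟨h, hh⟩ := exists_conj h19 hsq hv hv'
  obtain ⟨f, hf⟩ : ∃ f, f = h * f' * h⁻¹ := ⟨_, rfl⟩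
  have hfo : orderOf f = 5 := by
    rw [hf, ← hf']
    exact orderOf_injective (MulAut.conj h).toMonoidHom (MulAut.conj h).injective f'
  have hfv : f * v = v * f := by rw [hf]; exact (hh f').1 hfv'
  have hfs : ∀ s, orderOf s = 2 → s * f = f * s → s * v ≠ v * s := by
    intro s hs hsf hsv
    have hs' : h * (h⁻¹ * s * h) * h⁻¹ = s := by group
    refine hfs' (h⁻¹ * s * h) ?_ ?_ ?_
    · rw [← hs]
      have := orderOf_injective (MulAut.conj h).toMonoidHom (MulAut.conj h).injective (h⁻¹ * s * h)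
      rw [← this]
      congr 1
    · rw [hf] at hsf
      calc h⁻¹ * s * h * f' = h⁻¹ * (s * (h * f' * h⁻¹)) * h := by group
        _ = h⁻¹ * ((h * f' * h⁻¹) * s) * h := by rw [hsf]
        _ = _ := by group
    · exact (hh _).2 (by rw [hs']; exact hsv)
  have hf5 : orderOf (mk v hfv) = 5 := orderOf_mk' (by norm_num) hfv hfo (hcop 5 (by norm_num) (by norm_num))
  have h5c : 5 ∣ c := by rw [← hf5]; exact orderOf_dvd_natCard _
  -- the 2-part
  have h4c : 4 ∣ c := by
    obtain ⟨v₂, hv₂, h4⟩ := D.four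
    have h1 := h4.trans (H199.NSmAbs.card_cent_dvd h19 hsq hv hv₂)
    rw [hcc] at h1
    exact (Nat.Coprime.dvd_of_dvd_mul_left (by norm_num) h1)
  -- the element of order 3
  have hy3 : orderOf (mk v hyv) = 3 := orderOf_mk' Nat.prime_three hyv hy (hcop 3 Nat.prime_three (by norm_num))
  have hX : Nat.card (zpowers (mk v hyv)) = 3 := by rw [Nat.card_zpowers, hy3]
  have hC : centralizer ((zpowers (mk v hyv) : Subgroup (XX v)) : Set (XX v)) = zpowers (mk v hyv) := by
    apply le_antisymm
    · intro u hu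
      obtain ⟨z, hz, rfl⟩ := exists_mk u
      have h1 : mk v hz * mk v hyv = mk v hyv * mk v hz :=
        (mem_centralizer_iff.1 hu _ (mem_zpowers _)).symm
      have h2 := comm_of_mk hz hyv (by rw [hy]; exact hcop 3 Nat.prime_three (by norm_num)) h1
      obtain ⟨i, j, hij⟩ := hyz z h2 hz
      refine mem_zpowers_iff.2 ⟨j, ?_⟩
      have h3 : (y ^ j) * v = v * y ^ j := ((show Commute y v from hyv).zpow_left j)
      have h4 : (mk v hyv) ^ j = mk v h3 := rfl
      rw [h4]
      refine (mk_eq_mk h3 hz).2 ⟨i, ?_⟩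
      rw [hij]
      exact ((show Commute v y from hyv.symm).zpow_zpow i j).symm.eq
    · exact le_centralizer (zpowers (mk v hyv))
  rcases H341.SelfThree.main tab (fun S _ hS => jone S hS) (fun S _ _ _ => known S) (zpowers (mk v hyv)) hX hC with
    ⟨N, hN, hnil, hN3, hq⟩ | ⟨N, hN, hcomm, hexp, ⟨e⟩⟩ | ⟨⟨e⟩⟩
  · -- nilpotent
    exfalso
    have hidx : Nat.card (XX v ⧸ N) = 3 ∨ Nat.card (XX v ⧸ N) = 6 := by
      rcases hq with h1 | ⟨⟨e⟩⟩
      · exact Or.inl h1
      · right
        rw [Nat.card_congr e.toEquiv, Nat.card_eq_fintype_card, Fintype.card_perm, Fintype.card_fin]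
        rfl
    have hcN : c = Nat.card (XX v ⧸ N) * Nat.card N := Subgroup.card_eq_card_quotient_mul_card_subgroup N
    have h2N : 2 ∣ Nat.card N := by
      rw [hcN] at h4c
      rcases hidx with h1 | h1 <;> rw [h1] at h4c <;> omega
    have : Fact (Nat.Prime 2) := ⟨Nat.prime_two⟩
    obtain ⟨s, hs⟩ := exists_prime_orderOf_dvd_card' (G := N) 2 h2N
    have hs2 : orderOf (s : XX v) = 2 := by rw [Subgroup.orderOf_coe, hs]
    have hfN : mk v hfv ∈ N := by
      rw [← QuotientGroup.eq_one_iff]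
      have h1 : orderOf (QuotientGroup.mk (mk v hfv) : XX v ⧸ N) ∣ 5 := by
        rw [← hf5]; exact orderOf_map_dvd (QuotientGroup.mk' N) _
      have h2 := orderOf_dvd_natCard (QuotientGroup.mk (mk v hfv) : XX v ⧸ N)
      have h3 := Nat.dvd_gcd h1 h2
      have h4 : Nat.gcd 5 (Nat.card (XX v ⧸ N)) = 1 := by
        rcases hidx with h | h <;> rw [h] <;> norm_num
      rw [h4, Nat.dvd_one, orderOf_eq_one_iff] at h3
      exact h3
    have hsf : (s : XX v) * mk v hfv = mk v hfv * s :=
      (OddOrderLocal.FittingHall.commute_of_mem_of_coprime_orderOf hnil s.2 hfN (by rw [hs2, hf5]; norm_num)).eq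
    obtain ⟨a, ha, hao, has⟩ := exists_lift Nat.prime_two (hcop 2 Nat.prime_two (by norm_num)) hs2
    refine hfs a hao ?_ ha
    refine comm_of_mk ha hfv (by rw [hfo]; exact hcop 5 (by norm_num) (by norm_num)) ?_
    rw [has]
    exact hsf
  · -- `A₅`
    have hcN : c = Nat.card (XX v ⧸ N) * Nat.card N := Subgroup.card_eq_card_quotient_mul_card_subgroup N
    have h60 : Nat.card (XX v ⧸ N) = 60 := by
      rw [Nat.card_congr e.toEquiv, nat_card_alternatingGroup, Nat.card_eq_fintype_card (α := Fin 5), Fintype.card_fin]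
      rfl
    have : Fact (Nat.Prime 2) := ⟨Nat.prime_two⟩
    have hN2 : IsPGroup 2 N := fun n => ⟨1, by
      rw [pow_one]; exact Subtype.ext (hexp n n.2)⟩
    obtain ⟨k, hk⟩ := IsPGroup.iff_card.1 hN2
    -- a subgroup of `G` isomorphic to `N`
    let C := centralizer ({v} : Set G)
    let M : Subgroup C := N.comap (QuotientGroup.mk' (Zx v))
    let ρ : M →* N := (QuotientGroup.mk' (Zx v)).subgroupComap N
    have hρ : Function.Surjective ρ := by
      rintro ⟨n, hn⟩
      obtain ⟨m, rfl⟩ := QuotientGroup.mk'_surjective (Zx v) n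
      exact ⟨⟨m, hn⟩, rfl⟩
    have hρk : Nat.card ρ.ker ∣ 19 := by
      have h1 : Nat.card ρ.ker ∣ Nat.card (Zx v) := by
        let j : ρ.ker →* Zx v :=
          { toFun := fun m => ⟨(m.1.1 : C), by
              have h2 := congrArg Subtype.val (MonoidHom.mem_ker.1 m.2)
              exact (QuotientGroup.eq_one_iff _).1 h2⟩
            map_one' := rfl
            map_mul' := fun _ _ => rfl }
        refine Subgroup.card_dvd_of_injective j fun a b hab => ?_
        have := congrArg Subtype.val hab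
        exact Subtype.ext (Subtype.ext this)
      have h2 : Nat.card (Zx v) = 19 := by rw [Zx, Nat.card_zpowers, self, Subgroup.orderOf_mk, hv]
      rwa [h2] at h1
    obtain ⟨S⟩ : Nonempty (Sylow 2 M) := inferInstance
    have hinj : Function.Injective (ρ.comp (S : Subgroup M).subtype) := by
      rw [injective_iff_map_eq_one]
      intro a ha
      have h1 : orderOf (a : M) ∣ 19 := by
        refine dvd_trans ?_ hρk
        have h2 := orderOf_dvd_natCard (⟨(a : M), MonoidHom.mem_ker.2 ha⟩ : ρ.ker)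
        rwa [Subgroup.orderOf_mk] at h2
      obtain ⟨i, hi⟩ := IsPGroup.iff_orderOf.1 S.isPGroup' a
      rw [← Subgroup.orderOf_coe] at hi
      rw [hi] at h1
      have h3 : i = 0 := by
        rcases (Nat.dvd_prime h19).1 h1 with h2 | h2
        · rcases Nat.eq_zero_or_pos i with h4 | h4
          · exact h4
          · have := Nat.one_lt_pow h4.ne' (by norm_num : 1 < 2)
            omega
        · have h5 : 2 ∣ 19 ∨ i = 0 := by
            rcases Nat.eq_zero_or_pos i with h4 | h4
            · exact Or.inr h4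
            · left; rw [← h2]; exact dvd_pow_self 2 h4.ne'
          rcases h5 with h5 | h5
          · omega
          · exact h5
      rw [h3, pow_zero, orderOf_eq_one_iff] at hi
      exact Subtype.ext hi
    have hScard : 2 ^ k ∣ Nat.card S := by
      rw [S.card_eq_multiplicity]
      apply pow_dvd_pow
      apply (Nat.prime_two.pow_dvd_iff_le_factorization Nat.card_pos.ne').1
      rw [← hk]
      exact Subgroup.card_dvd_of_surjective ρ hρ
    have hk15 : k ≤ 15 := by
      have hr := D.rank (((S : Subgroup M).map M.subtype).map C.subtype) ?_ ?_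
      · rw [Subgroup.card_map_of_injective C.subtype_injective, Subgroup.card_map_of_injective M.subtype_injective] at hr
        have h1 := Nat.le_of_dvd Nat.card_pos hScard
        exact (Nat.pow_le_pow_iff_right (by norm_num : 1 < 2)).1 (h1.trans hr)
      · have hSc : ∀ a b : (S : Subgroup M), a * b = b * a := by
          intro a b
          apply hinj
          rw [map_mul, map_mul]
          exact hcomm.is_comm.comm _ _
        refine ⟨⟨?_⟩⟩
        rintro ⟨_, ⟨_, ⟨a, ha, rfl⟩, rfl⟩⟩ ⟨_, ⟨_, ⟨b, hb, rfl⟩, rfl⟩⟩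
        have h1 := congrArg (fun t : (S : Subgroup M) => (((t : M) : C) : G)) (hSc ⟨a, ha⟩ ⟨b, hb⟩)
        exact Subtype.ext h1
      · rintro _ ⟨_, ⟨a, ha, rfl⟩, rfl⟩
        have h1 : (⟨a, ha⟩ : (S : Subgroup M)) ^ 2 = 1 := by
          apply hinj
          rw [map_pow, map_one]
          exact Subtype.ext (hexp _ (ρ a).2)
        exact congrArg (fun t : (S : Subgroup M) => (((t : M) : C) : G)) h1
    rw [hcc]
    rw [hcN, h60, hk] at hmod ⊢
    have hk0 : k = 0 := by
      by_contra hne
      interval_cases k <;> first | exact hne rfl | (revert hmod; decide)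
    rw [hk0]
    norm_num
  · -- `L₂(7)`
    exfalso
    have hfact : Fact (Nat.Prime 7) := ⟨by norm_num⟩
    have h := ClassicalGeometry.PSL2Basic.card_PSL2_odd (ZMod 7) (by rw [ZMod.card]; decide)
    rw [ZMod.card] at h
    have h168 : c = 168 := by rw [hc, Nat.card_congr e.toEquiv]; omega
    rw [h168] at h5c
    omega

end Cfsg.Agent.H328.Mon
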